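import Cfsg.Agent.H436.Names

/-!
# `E₈(2)`, class 30: names killed by the order (helper363)
-/

set_option autoImplicit false
set_option exponentiation.threshold 1000

namespace Cfsg.Agent.H363.Wei

open Cfsg Cfsg.Agent.OrdDiv Cfsg.Agent.H436

theorem kill_ord {g g' : Grp} {S : Type*} [Group S] (hg : IsNamed g S) (hd : Nat.card S ∣ num g')
    (h : ¬ num g ∣ den g * num g') : False := by
  apply h
  rw [← hg.eq]
  exact Nat.mul_dvd_mul_left _ hd

theorem ord_psp3 : ¬ num (.psp 3 (2 ^ 5)) ∣ den (.psp 3 (2 ^ 5)) * num (.e8 (2 ^ 1)) := by decide +kernel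
theorem ord_psu4 : ¬ num (.psu 4 (2 ^ 5)) ∣ den (.psu 4 (2 ^ 5)) * num (.e8 (2 ^ 1)) := by decide +kernel
theorem ord_oplus4 : ¬ num (.oplus 4 (2 ^ 5)) ∣ den (.oplus 4 (2 ^ 5)) * num (.e8 (2 ^ 1)) := by decide +kernel

end Cfsg.Agent.H363.Wei
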