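import Cfsg.Agent.H56.Exc.Full

/-!
# Groups with one big cyclic torus (helper363)

`G` is a finite group, `y ∈ G` has order `n`, the primes of `n` are big (`Big G r m e`) and `e * m < n * (n + 1)`.

* `card_quot_mod` : the number of conjugates of `⟨y⟩` is `1` modulo `n`;
* `one_torus` : in a reduced group `⟨y⟩` is normal or there is a simple normal nonabelian subgroup containing `y`;
* `one_torus_core` : the same modulo the largest normal subgroup of order prime to `n`.
-/

set_option autoImplicit false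

namespace Cfsg.Agent.H363.Wei

open Subgroup Cfsg.Agent.H56.Exc

universe u

section Conj

variable {G : Type*} [Group G] [Finite G] {n m e : ℕ}

/-- the normaliser of a nontrivial subgroup of the torus of prime order normalises the torus -/
theorem norm_of_prime {r : ℕ} (h : Big G r m e) {y : G} (hr : r ∣ orderOf y) {x g : G} (hx : x ∈ zpowers y)
    (hxr : orderOf x = r) (hg : g * x * g⁻¹ ∈ zpowers x) : g * y * g⁻¹ ∈ zpowers y := by
  have hyC : y ∈ centralizer {x} := by
    rw [mem_centralizer_singleton_iff]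
    obtain ⟨k, rfl⟩ := hx
    exact ((Commute.refl y).zpow_right k).eq
  have h1 : x ∈ zpowers (g * x * g⁻¹) := by
    refine mem_zpowers_of_cyclic (h.cyc (g * x * g⁻¹) ?_) ?_ ?_ ?_
    · rw [← hxr, ← MulAut.conj_apply]; exact (MulAut.conj g).orderOf_eq x
    · rw [mem_centralizer_singleton_iff]
    · rw [mem_centralizer_singleton_iff]
      obtain ⟨k, hk⟩ := hg
      rw [← hk]
      exact ((Commute.refl x).zpow_right k).eq
    · rw [← MulAut.conj_apply, (MulAut.conj g).orderOf_eq x]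
  refine mem_zpowers_of_cyclic (h.cyc x hxr) hyC ?_ ?_
  · rw [mem_centralizer_singleton_iff]
    obtain ⟨k, hk⟩ := h1
    have h2 : Commute (g * y * g⁻¹) (g * x * g⁻¹) := by
      rw [mem_centralizer_singleton_iff] at hyC
      show (g * y * g⁻¹) * (g * x * g⁻¹) = (g * x * g⁻¹) * (g * y * g⁻¹)
      calc _ = g * (y * x) * g⁻¹ := by group
        _ = g * (x * y) * g⁻¹ := by rw [hyC]
        _ = _ := by group
    have h3 := h2.zpow_right k
    have hk' : (g * x * g⁻¹) ^ k = x := hk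
    rw [hk'] at h3
    exact h3.eq
  · rw [← MulAut.conj_apply, (MulAut.conj g).orderOf_eq y]

theorem mem_norm_zpowers {y g : G} (h : g * y * g⁻¹ ∈ zpowers y) : g ∈ normalizer (zpowers y : Set G) := by
  have key : ∀ {g : G}, g * y * g⁻¹ ∈ zpowers y → ∀ a ∈ zpowers y, g * a * g⁻¹ ∈ zpowers y := by
    rintro g h _ ⟨k, rfl⟩
    show g * y ^ k * g⁻¹ ∈ zpowers y
    rw [← conj_zpow]
    exact zpow_mem h k
  have h2 : g⁻¹ * y * g⁻¹⁻¹ ∈ zpowers y := by
    -- the conjugate generates the same group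
    have h3 : y ∈ zpowers (g * y * g⁻¹) := by
      have h4 : zpowers (g * y * g⁻¹) ≤ zpowers y := by rwa [zpowers_le]
      have h5 : zpowers (g * y * g⁻¹) = zpowers y := by
        refine Subgroup.eq_of_le_of_card_ge h4 ?_
        rw [Nat.card_zpowers, Nat.card_zpowers, ← MulAut.conj_apply, (MulAut.conj g).orderOf_eq y]
      rw [h5]
      exact mem_zpowers y
    obtain ⟨k, hk⟩ := h3
    have hk' : (g * y * g⁻¹) ^ k = y := hk
    refine ⟨k, ?_⟩
    show y ^ k = _
    rw [conj_zpow] at hk'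
    nth_rewrite 2 [← hk']
    group
  rw [mem_normalizer_iff]
  intro a
  refine ⟨key h a, fun ha => ?_⟩
  have h3 := key h2 _ ha
  have h4 : g⁻¹ * (g * a * g⁻¹) * g⁻¹⁻¹ = a := by group
  rwa [h4] at h3

theorem exists_prime_pow {y : G} {r : ℕ} (hr : r.Prime) (hry : r ∣ orderOf y) : ∃ x ∈ zpowers y, orderOf x = r := by
  obtain ⟨k, hk⟩ := hry
  have h0 : 0 < orderOf y := orderOf_pos y
  have hk0 : k ≠ 0 := by rintro rfl; omega
  refine ⟨y ^ k, ⟨k, zpow_natCast y k⟩, ?_⟩
  rw [orderOf_pow_of_dvd hk0 (by rw [hk]; exact dvd_mul_left _ _), hk, Nat.mul_div_cancel _ (Nat.pos_of_ne_zero hk0)]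

/-- a nontrivial element of the torus normalises no other conjugate of the torus -/
theorem mem_norm_of_conj (hbig : ∀ r, r.Prime → r ∣ n → Big G r m e) {y : G} (hy : orderOf y = n) {t g : G}
    (ht : t ∈ zpowers y) (ht1 : t ≠ 1) (h : g⁻¹ * t * g ∈ normalizer (zpowers y : Set G)) :
    g ∈ normalizer (zpowers y : Set G) := by
  -- a power of prime order
  have ho1 : orderOf t ≠ 1 := fun h1 => ht1 (orderOf_eq_one_iff.1 h1)
  obtain ⟨r, hr, hrt⟩ := Nat.exists_prime_and_dvd ho1
  obtain ⟨s, hst, hs⟩ := exists_prime_pow hr hrt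
  have hrn : r ∣ n := hrt.trans (hy ▸ orderOf_dvd_of_mem_zpowers ht)
  have hb := hbig r hr hrn
  have hsy : s ∈ zpowers y := (zpowers_le.2 ht) hst
  -- `g⁻¹ s g` normalises the torus
  have h1 : g⁻¹ * s * g ∈ normalizer (zpowers y : Set G) := by
    obtain ⟨k, rfl⟩ := hst
    have h2 : g⁻¹ * t ^ k * g = (g⁻¹ * t * g) ^ k := by
      have := conj_zpow (a := g⁻¹) (b := t) (i := k)
      rw [inv_inv] at this
      exact this.symm
    show g⁻¹ * t ^ k * g ∈ _
    rw [h2]
    exact zpow_mem h k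
  set u := g⁻¹ * s * g with hu
  have hur : orderOf u = r := by
    rw [← hs, hu]
    have := (MulAut.conj g⁻¹).orderOf_eq s
    rw [MulAut.conj_apply, inv_inv] at this
    exact this
  have h2 : u * s * u⁻¹ ∈ zpowers s := by
    -- the cyclic torus has one subgroup of order `r`
    have h3 : u * s * u⁻¹ ∈ zpowers y := (mem_normalizer_iff.1 h1 s).1 hsy
    refine mem_zpowers_of_cyclic (C := zpowers y) inferInstance hsy h3 ?_
    rw [← MulAut.conj_apply, (MulAut.conj u).orderOf_eq s]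
  have h3 := hb.aut s u hs h2
  have h4 : Commute u s := by
    have hco : Nat.Coprime e (orderOf u) := by
      rw [hur]
      exact ((Nat.Prime.coprime_iff_not_dvd hr).2 hb.ndvd).symm
    obtain ⟨k, hk⟩ := exists_pow_eq_self_of_coprime hco
    rw [← hk]
    exact h3.pow_left k
  have h5 : u ∈ zpowers s := by
    refine mem_zpowers_of_cyclic (hb.cyc s hs) ?_ ?_ ?_
    · rw [mem_centralizer_singleton_iff]
    · rw [mem_centralizer_singleton_iff]; exact h4.eq
    · rw [hur, hs]
  have h6 : g⁻¹ * y * g⁻¹⁻¹ ∈ zpowers y := by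
    refine norm_of_prime hb (hy ▸ hrn) hsy hs ?_
    rw [inv_inv]
    exact h5
  have h7 := mem_norm_zpowers h6
  simpa using inv_mem h7

/-- **Sylow.** The number of conjugates of the torus is `1` modulo `n`. -/
theorem index_mod (hn : 1 < n) (hbig : ∀ r, r.Prime → r ∣ n → Big G r m e) {y : G} (hy : orderOf y = n) :
    ∃ o : ℕ, (normalizer (zpowers y : Set G)).index + (n - 1) = o * n := by
  classical
  set N := normalizer (zpowers y : Set G) with hN
  have : Fintype (G ⧸ N) := Fintype.ofFinite _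
  have : Fintype ↥(zpowers y) := Fintype.ofFinite _
  have : Fintype (MulAction.orbitRel.Quotient ↥(zpowers y) (G ⧸ N)) := Fintype.ofFinite _
  have hF : ∀ t : ↥(zpowers y), Fintype ↥(MulAction.fixedBy (G ⧸ N) t) := fun t => Fintype.ofFinite _
  have h1 := MulAction.sum_card_fixedBy_eq_card_orbits_mul_card_group ↥(zpowers y) (G ⧸ N)
  refine ⟨Fintype.card (MulAction.orbitRel.Quotient ↥(zpowers y) (G ⧸ N)), ?_⟩
  have hcard : Fintype.card ↥(zpowers y) = n := by
    rw [← Nat.card_eq_fintype_card, Nat.card_zpowers, hy]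
  rw [hcard] at h1
  rw [← h1, ← Finset.add_sum_erase Finset.univ _ (Finset.mem_univ (1 : ↥(zpowers y)))]
  have h2 : Fintype.card ↥(MulAction.fixedBy (G ⧸ N) (1 : ↥(zpowers y))) = N.index := by
    rw [Subgroup.index, Nat.card_eq_fintype_card]
    apply Fintype.card_congr
    rw [MulAction.fixedBy_one_eq_univ]
    exact Equiv.Set.univ _
  have h3 : ∀ t ∈ Finset.univ.erase (1 : ↥(zpowers y)), Fintype.card ↥(MulAction.fixedBy (G ⧸ N) t) = 1 := by
    intro t ht
    have ht1 : (t : G) ≠ 1 := fun h => (Finset.ne_of_mem_erase ht) (Subtype.ext h)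
    rw [Fintype.card_eq_one_iff]
    refine ⟨⟨((1 : G) : G ⧸ N), ?_⟩, ?_⟩
    · rw [MulAction.mem_fixedBy]
      show (((t : G) * 1 : G) : G ⧸ N) = _
      rw [QuotientGroup.eq]
      have h4 : (t : G) ∈ N := by
        apply le_normalizer (H := zpowers y)
        exact t.2
      simpa using inv_mem h4
    · rintro ⟨a, ha⟩
      obtain ⟨g, rfl⟩ := QuotientGroup.mk_surjective a
      rw [MulAction.mem_fixedBy] at ha
      have h4 : (((t : G) * g : G) : G ⧸ N) = ((g : G) : G ⧸ N) := ha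
      rw [QuotientGroup.eq] at h4
      have h5 : g⁻¹ * (t : G) * g ∈ N := by
        have := inv_mem h4
        have e1 : (((t : G) * g)⁻¹ * g)⁻¹ = g⁻¹ * (t : G) * g := by group
        rwa [e1] at this
      have h6 := mem_norm_of_conj hbig hy t.2 ht1 h5
      apply Subtype.ext
      show ((g : G) : G ⧸ N) = ((1 : G) : G ⧸ N)
      rw [QuotientGroup.eq, mul_one]
      exact inv_mem h6
  rw [Finset.sum_congr rfl h3, h2, Finset.sum_const, smul_eq_mul, mul_one, Finset.card_erase_of_mem (Finset.mem_univ _),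
    Finset.card_univ, hcard]

/-- a group of order less than `n * (n + 1)` -/
theorem normal_of_card_lt (hn : 1 < n) (hbig : ∀ r, r.Prime → r ∣ n → Big G r m e) {y : G} (hy : orderOf y = n)
    (hc : Nat.card G < n * (n + 1)) : (zpowers y).Normal := by
  obtain ⟨o, ho⟩ := index_mod hn hbig hy
  rw [← Subgroup.normalizer_eq_top_iff, ← Subgroup.index_eq_one]
  set N := normalizer (zpowers y : Set G) with hN
  have h1 : n ≤ Nat.card N := by
    rw [← hy, ← Nat.card_zpowers]
    exact Subgroup.card_le_of_le le_normalizer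
  have h2 : N.index * Nat.card N = Nat.card G := N.index_mul_card
  have h3 : 0 < N.index := Nat.pos_of_ne_zero Subgroup.index_ne_zero_of_finite
  have h4 : N.index < n + 1 := by
    have h5 : N.index * n ≤ Nat.card G := by
      rw [← h2]
      exact Nat.mul_le_mul_left _ h1
    have h6 : N.index * n < (n + 1) * n := by
      rw [mul_comm (n + 1) n]
      exact h5.trans_lt hc
    exact Nat.lt_of_mul_lt_mul_right h6
  have h5 : o * n < 2 * n := by omega
  have h6 : o < 2 := Nat.lt_of_mul_lt_mul_right h5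
  have h7 : o ≠ 0 := by rintro rfl; omega
  have h8 : o = 1 := by omega
  subst h8
  omega

end Conj

/-- the family -/
def F1 (n m e : ℕ) : ℕ → ℕ → ℕ → Prop := fun r m' e' => (r.Prime ∧ r ∣ n) ∧ m' = m ∧ e' = e

theorem pr_F1 {n m e r : ℕ} : Pr (F1 n m e) r ↔ r.Prime ∧ r ∣ n :=
  ⟨fun ⟨_, _, h, _, _⟩ => h, fun h => ⟨m, e, h, rfl, rfl⟩⟩

section Main

variable {G : Type u} [Group G] [Finite G] {n m e : ℕ}

/-- **One big torus, reduced groups.** -/
theorem one_torus (hE : CycFixSolv.{u}) (hn : 1 < n) (hbig : ∀ r, r.Prime → r ∣ n → Big G r m e)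
    (hem0 : 0 < e * m) (hem : e * m < n * (n + 1)) {y : G} (hy : orderOf y = n)
    (hred : Red G (fun r => r.Prime ∧ r ∣ n)) :
    (zpowers y).Normal ∨ ∃ S : Subgroup G, S.Normal ∧ IsSimpleGroup S ∧ ¬ IsMulCommutative S ∧
      centralizer (S : Set G) = ⊥ ∧ y ∈ S ∧ (∀ r, r.Prime → r ∣ n → Big S r m e ∧ ¬ r ∣ S.index) ∧ S.index ∣ e * m := by
  by_cases hc : Nat.card G ∣ e * m
  · left
    exact normal_of_card_lt hn hbig hy ((Nat.le_of_dvd hem0 hc).trans_lt hem)
  right
  have hR : RFam G (F1 n m e) := by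
    refine ⟨?_, ?_, ?_⟩
    · rintro r m' e' ⟨⟨hr, hrn⟩, rfl, rfl⟩
      exact hbig r hr hrn
    · rintro r m' e' ⟨⟨hr, hrn⟩, rfl, rfl⟩
      exact hrn.trans (hy ▸ orderOf_dvd_natCard y)
    · rintro r m' e' ⟨⟨hr, hrn⟩, rfl, rfl⟩
      exact hc
  have hred' : Red G (Pr (F1 n m e)) := fun N hN h => hred N hN fun r hr => h r (pr_F1.2 hr)
  obtain ⟨r₁, hr₁, hr₁n⟩ := Nat.exists_prime_and_dvd hn.ne'
  obtain ⟨S, hSn, hSs, hSna, hS⟩ := hR.exists_full hE hred' (r₁ := r₁) (m₁ := m) (e₁ := e) ⟨⟨hr₁, hr₁n⟩, rfl, rfl⟩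
  have hS' : ∀ r, r.Prime → r ∣ n → Big S r m e ∧ r ∣ Nat.card S ∧ ¬ r ∣ S.index ∧ S.index ∣ e * m :=
    fun r hr hrn => hS r m e ⟨⟨hr, hrn⟩, rfl, rfl⟩
  have hyS : y ∈ S := by
    have h1 : orderOf (QuotientGroup.mk' S y) ∣ n := hy ▸ orderOf_map_dvd _ y
    have h2 : orderOf (QuotientGroup.mk' S y) ∣ S.index := by
      rw [Subgroup.index]
      exact orderOf_dvd_natCard _
    have h3 : orderOf (QuotientGroup.mk' S y) = 1 := by
      by_contra h4
      obtain ⟨r, hr, hrd⟩ := Nat.exists_prime_and_dvd h4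
      exact (hS' r hr (hrd.trans h1)).2.2.1 (hrd.trans h2)
    rw [orderOf_eq_one_iff] at h3
    exact (QuotientGroup.eq_one_iff y).1 h3
  refine ⟨S, hSn, hSs, hSna, ?_, hyS, fun r hr hrn => ⟨(hS' r hr hrn).1, (hS' r hr hrn).2.2.1⟩, (hS' r₁ hr₁ hr₁n).2.2.2⟩
  obtain ⟨x, hx, hxr⟩ := exists_prime_pow hr₁ (hy ▸ hr₁n : r₁ ∣ orderOf y)
  apply hR.eq_bot_of_solvable hred' inferInstance
  have hxS : x ∈ S := (zpowers_le.2 hyS) hx
  have hle : centralizer (S : Set G) ≤ centralizer {x} := by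
    apply centralizer_le
    intro a ha
    rw [Set.mem_singleton_iff] at ha
    rw [ha]; exact hxS
  apply isSolvable_of_cyclic
  have := (hbig r₁ hr₁ hr₁n).cyc x hxr
  exact isCyclic_of_injective (Subgroup.inclusion hle) (Subgroup.inclusion_injective hle)

/-- **One big torus.** -/
theorem one_torus_core (hE : CycFixSolv.{u}) (hn : 1 < n) (hbig : ∀ r, r.Prime → r ∣ n → Big G r m e)
    (hem0 : 0 < e * m) (hem : e * m < n * (n + 1)) {y : G} (hy : orderOf y = n) :
    ∃ (O : Subgroup G) (_ : O.Normal), (∀ r, r.Prime → r ∣ n → ¬ r ∣ Nat.card O) ∧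
      (∀ K : Subgroup G, K.Normal → (∀ r, r.Prime → r ∣ n → ¬ r ∣ Nat.card K) → K ≤ O) ∧
      orderOf (QuotientGroup.mk' O y) = n ∧ (∀ r, r.Prime → r ∣ n → Big (G ⧸ O) r m e) ∧
      ((zpowers (QuotientGroup.mk' O y)).Normal ∨ ∃ S : Subgroup (G ⧸ O), S.Normal ∧ IsSimpleGroup S ∧
        ¬ IsMulCommutative S ∧ centralizer (S : Set (G ⧸ O)) = ⊥ ∧ QuotientGroup.mk' O y ∈ S ∧
        (∀ r, r.Prime → r ∣ n → Big S r m e ∧ ¬ r ∣ S.index) ∧ S.index ∣ e * m) := by
  obtain ⟨O, hO, h1, h2⟩ := exists_core G (fun r => r.Prime ∧ r ∣ n) fun r hr => hr.1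
  -- the order of the image
  have hord : orderOf (QuotientGroup.mk' O y) = n := by
    apply Nat.dvd_antisymm (hy ▸ orderOf_map_dvd _ y)
    set k := orderOf (QuotientGroup.mk' O y) with hk
    have h3 : y ^ k ∈ O := by
      rw [← QuotientGroup.eq_one_iff]
      show QuotientGroup.mk' O (y ^ k) = 1
      rw [map_pow, hk, pow_orderOf_eq_one]
    have h4 : orderOf (y ^ k) ∣ Nat.card O := by
      have := orderOf_dvd_natCard (⟨y ^ k, h3⟩ : ↥O)
      rwa [Subgroup.orderOf_mk] at this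
    have h5 : orderOf (y ^ k) = 1 := by
      by_contra h6
      obtain ⟨r, hr, hrd⟩ := Nat.exists_prime_and_dvd h6
      exact h1 r ⟨hr, (hrd.trans (orderOf_pow_dvd k)).trans (hy ▸ dvd_rfl)⟩ (hrd.trans h4)
    rw [orderOf_eq_one_iff] at h5
    rw [← hy]
    exact orderOf_dvd_of_pow_eq_one h5
  have hb : ∀ r, r.Prime → r ∣ n → Big (G ⧸ O) r m e := fun r hr hrn => (hbig r hr hrn).quotient O (h1 r ⟨hr, hrn⟩)
  have hred : Red (G ⧸ O) (fun r => r.Prime ∧ r ∣ n) := by
    intro N hN hNr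
    have h3 : N.comap (QuotientGroup.mk' O) ≤ O := by
      apply h2 _ (hN.comap _)
      intro r hr h
      have h4 : Nat.card (N.comap (QuotientGroup.mk' O)) = Nat.card O * Nat.card N := by
        have h5 := Subgroup.card_mul_index (N.comap (QuotientGroup.mk' O))
        rw [Subgroup.index_comap_of_surjective _ (QuotientGroup.mk'_surjective O)] at h5
        have h6 := Subgroup.card_mul_index N
        have h7 := Subgroup.card_eq_card_quotient_mul_card_subgroup O
        have h8 : 0 < N.index := Nat.pos_of_ne_zero Subgroup.index_ne_zero_of_finite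
        apply Nat.eq_of_mul_eq_mul_right h8
        rw [h5, mul_assoc, h6, h7, mul_comm]
      rw [h4] at h
      rcases hr.1.dvd_mul.1 h with h | h
      · exact h1 r hr h
      · exact hNr r hr h
    rw [eq_bot_iff]
    intro a ha
    obtain ⟨b, rfl⟩ := QuotientGroup.mk'_surjective O a
    have h4 : b ∈ O := h3 ha
    rw [Subgroup.mem_bot]
    exact (QuotientGroup.eq_one_iff b).2 h4
  exact ⟨O, hO, fun r hr hrn => h1 r ⟨hr, hrn⟩, fun K hK hKr => h2 K hK fun r hr => hKr r hr.1 hr.2, hord, hb,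
    one_torus hE hn hb hem0 hem hord hred⟩

end Main

end Cfsg.Agent.H363.Wei
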